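import Mathlib
import Cfsg.Agent.Lib.AutPSp.FieldMain
import Cfsg.Agent.Lib.AutPSp.Coset
import Cfsg.Agent.Lib.AutPSp.Main
import Cfsg.Agent.Lib.Classical.Symp2
import Cfsg.Agent.Lib.Classical.Symp

/-! Transvections under semilinear automorphisms of `PSp`. -/

set_option autoImplicit false
set_option linter.unusedSimpArgs false
set_option linter.unusedVariables false
set_option linter.unusedSectionVars false

namespace Cfsg.Agent.Lib.AutPSp

open Matrix MulAction Cfsg.Agent.Lib.AutPSL Cfsg.Agent.Lib.Classical Cfsg.Agent.Lib.KnownSimple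
open scoped MatrixGroups LinearAlgebra.Projectivization

variable {m : ℕ} {F : Type*} [Field F]

local notation "ff" => Cfsg.sympForm m F
local notation "VV" => (Fin m ⊕ Fin m → F)
local notation "MM" => Matrix (Fin m ⊕ Fin m) (Fin m ⊕ Fin m) F
local notation "GG" => GL (Fin m ⊕ Fin m) F

/-- Base change of a transvection. -/
theorem sympT_map_hom {K : Type*} [Field K] (φ : K →+* F) (w : Fin m ⊕ Fin m → K) (c : K) :
    (Cfsg.sympTransvection m w c).map φ = Cfsg.sympTransvection m (fun i => φ (w i)) (φ c) := by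
  have e : ∀ j, φ ((Matrix.J (Fin m) K *ᵥ w) j) = (Matrix.J (Fin m) F *ᵥ (fun i => φ (w i))) j := by
    intro j
    rw [← J_map_hom φ]
    simp [Matrix.mulVec, dotProduct, map_sum]
  ext i j
  simp only [Matrix.map_apply, Cfsg.sympTransvection, Matrix.add_apply, Matrix.smul_apply, Matrix.vecMulVec_apply, smul_eq_mul, map_add, map_mul, e]
  congr 1
  by_cases h : i = j
  · subst h
    simp
  · simp [Matrix.one_apply, h]

/-- Field automorphisms on a transvection. -/
theorem sympT_map (ρ : F ≃+* F) (w : VV) (c : F) :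
    (Cfsg.sympTransvection m w c).map ρ = Cfsg.sympTransvection m (sm ρ w) (ρ c) :=
  sympT_map_hom (ρ : F →+* F) w c

/-- Conformal symplectic matrices on a transvection. -/
theorem gsp_conj_sympT {g : GG} {μ : Fˣ} (hμ : ∀ u v, ff ((g : MM) *ᵥ u) ((g : MM) *ᵥ v) = (μ : F) * ff u v) (a : VV) (c : F) :
    (g : MM) * Cfsg.sympTransvection m a c * ((g⁻¹ : GG) : MM) = Cfsg.sympTransvection m ((g : MM) *ᵥ a) (c * (μ : F)⁻¹) := by
  apply mat_ext_mulVec
  intro x
  have h1 : (g : MM) * ((g⁻¹ : GG) : MM) = 1 := by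
    rw [← Units.val_mul, mul_inv_cancel, Units.val_one]
  have h2 : (g : MM) *ᵥ (((g⁻¹ : GG) : MM) *ᵥ x) = x := by
    rw [mulVec_mulVec, h1, one_mulVec]
  have h3 : ff x ((g : MM) *ᵥ a) = (μ : F) * ff (((g⁻¹ : GG) : MM) *ᵥ x) a := by
    rw [← hμ, h2]
  rw [← mulVec_mulVec, ← mulVec_mulVec, sympT_mulVec, sympT_mulVec, mulVec_add, mulVec_smul, h2, h3]
  congr 2
  have hμ0 : (μ : F) ≠ 0 := μ.ne_zero
  field_simp

theorem exists_ff_ne {u : VV} (hu : u ≠ 0) : ∃ x, ff x u ≠ 0 := by
  by_contra hcon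
  push Not at hcon
  exact hu (sympForm_right_eq_zero hcon)

/-- Equal transvections. -/
theorem sympT_eq_imp {a w : VV} {c c' : F} (hw : w ≠ 0) (hc : c ≠ 0) (h : Cfsg.sympTransvection m a c' = Cfsg.sympTransvection m w c) :
    ∃ κ : F, κ ≠ 0 ∧ w = κ • a ∧ c' = c * κ ^ 2 := by
  have hact : ∀ x, (c' * ff x a) • a = (c * ff x w) • w := by
    intro x
    have h2 : (Cfsg.sympTransvection m a c') *ᵥ x = Cfsg.sympTransvection m w c *ᵥ x := by rw [h]
    rw [sympT_mulVec, sympT_mulVec] at h2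
    exact add_left_cancel h2
  obtain ⟨x, hx⟩ := exists_ff_ne hw
  set κ : F := (c' * ff x a) / (c * ff x w) with hκ
  have hd : c * ff x w ≠ 0 := mul_ne_zero hc hx
  have hwa : w = κ • a := by
    have := hact x
    rw [hκ, div_eq_inv_mul, mul_smul, this, smul_smul, inv_mul_cancel₀ hd, one_smul]
  have hκ0 : κ ≠ 0 := by
    intro h0
    apply hw
    rw [hwa, h0, zero_smul]
  have ha0 : a ≠ 0 := by
    rintro rfl
    apply hw
    rw [hwa, smul_zero]
  refine ⟨κ, hκ0, hwa, ?_⟩
  obtain ⟨y, hy⟩ := exists_ff_ne ha0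
  have h3 := hact y
  rw [hwa, sympForm_smul_right, smul_smul] at h3
  have h4 : (c' * ff y a - c * (κ * ff y a) * κ) • a = 0 := by
    rw [sub_smul, h3, sub_self]
  have h5 := (smul_eq_zero.1 h4).resolve_right ha0
  have h6 : (c' - c * κ ^ 2) * ff y a = 0 := by
    linear_combination h5
  exact sub_eq_zero.1 ((mul_eq_zero.1 h6).resolve_right hy)

/-- A transvection is never the negative of a transvection. -/
theorem sympT_ne_neg (hm : 2 ≤ m) (h2 : (2 : F) ≠ 0) (a w : VV) (c c' : F) : Cfsg.sympTransvection m a c' ≠ - Cfsg.sympTransvection m w c := by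
  classical
  intro h
  let L : VV →ₗ[F] F × F :=
    { toFun := fun x => (ff x a, ff x w)
      map_add' := by
        intro x y
        simp [sympForm_add_left]
      map_smul' := by
        intro e x
        simp [sympForm_smul_left] }
  have hker : LinearMap.ker L ≠ ⊥ := by
    apply LinearMap.ker_ne_bot_of_finrank_lt
    have h1 : Module.finrank F (F × F) = 2 := by simp
    have h3 : Module.finrank F VV = m + m := by simp
    omega
  obtain ⟨x, hx, hx0⟩ := (Submodule.ne_bot_iff _).1 hker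
  have hx1 : ff x a = 0 := congrArg Prod.fst (LinearMap.mem_ker.1 hx)
  have hx2 : ff x w = 0 := congrArg Prod.snd (LinearMap.mem_ker.1 hx)
  have h3 : Cfsg.sympTransvection m a c' *ᵥ x = (- Cfsg.sympTransvection m w c) *ᵥ x := by rw [h]
  rw [neg_mulVec, sympT_mulVec, sympT_mulVec, hx1, hx2] at h3
  simp only [mul_zero, zero_smul, add_zero] at h3
  apply hx0
  have h4 : (2 : F) • x = 0 := by
    rw [two_smul]
    nth_rewrite 1 [h3]
    simp
  exact (smul_eq_zero.1 h4).resolve_left h2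

/-- The effect of fixing a transvection in `PSp`. -/
theorem semi_fix_transv [Fact (1 ≤ m)] (hm : 2 ≤ m) {g : GG} {ρ : F ≃+* F} (hg : g ∈ Cfsg.GSp m F) {μ : Fˣ}
    (hμ : ∀ u v, ff ((g : MM) *ᵥ u) ((g : MM) *ᵥ v) = (μ : F) * ff u v) {w : VV} (hw : w ≠ 0) {c : F} (hc : c ≠ 0)
    (hfix : psemi g ρ hg (pr (sympTr w c)) = pr (sympTr w c)) :
    ∃ κ : F, κ ≠ 0 ∧ w = κ • ((g : MM) *ᵥ sm ρ w) ∧ ρ c * (μ : F)⁻¹ = c * κ ^ 2 := by
  rw [psemi_pr, pr_eq_iff, spSemi_coe, sympTr_coe, sympT_map, gsp_conj_sympT hμ] at hfix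
  have h1 : Cfsg.sympTransvection m ((g : MM) *ᵥ sm ρ w) (ρ c * (μ : F)⁻¹) = Cfsg.sympTransvection m w c := by
    rcases hfix with h | h
    · exact h
    · by_cases h2 : (2 : F) = 0
      · rw [h]
        ext i j
        simp only [Matrix.neg_apply]
        exact neg_eq_of_add_eq_zero_left (by rw [← two_mul, h2, zero_mul])
      · exact absurd h (sympT_ne_neg hm h2 _ _ _ _)
  exact sympT_eq_imp hw hc h1

section base

variable {K₀ : Type*} [Field K₀] (φ : K₀ →+* F)

/-- Base change of symplectic matrices. -/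
noncomputable def spMap : Sp m K₀ →* Sp m F where
  toFun A := ⟨A.1.map φ, by
    have h := (SymplecticGroup.mem_iff' (A := A.1)).1 A.2
    have e : ((A.1)ᵀ * Matrix.J (Fin m) K₀ * A.1).map φ = (A.1.map φ)ᵀ * Matrix.J (Fin m) F * A.1.map φ := by
      rw [Matrix.map_mul, Matrix.map_mul, J_map_hom, Matrix.transpose_map]
    rw [SymplecticGroup.mem_iff', ← e, h, J_map_hom]⟩
  map_one' := by
    apply Subtype.ext
    show (1 : Matrix (Fin m ⊕ Fin m) (Fin m ⊕ Fin m) K₀).map φ = 1
    simp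
  map_mul' A B := by
    apply Subtype.ext
    show (A.1 * B.1).map φ = A.1.map φ * B.1.map φ
    rw [Matrix.map_mul]

theorem spMap_coe (A : Sp m K₀) : (spMap φ A).1 = A.1.map φ := rfl

theorem spMap_inj : Function.Injective (spMap (m := m) φ) := by
  intro A B h
  apply Subtype.ext
  exact Matrix.map_injective φ.injective (congrArg Subtype.val h)

theorem spMap_sympTr (w : Fin m ⊕ Fin m → K₀) (c : K₀) : spMap φ (sympTr w c) = sympTr (fun i => φ (w i)) (φ c) := by
  apply Subtype.ext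
  exact sympT_map_hom φ w c

/-- The key fact: a semilinear automorphism fixing the base-changed group. -/
theorem semi_scalar_of_base_fix [Fact (1 ≤ m)] (hm : 2 ≤ m) {g : GG} {ρ : F ≃+* F} (hg : g ∈ Cfsg.GSp m F)
    (hfix : ∀ A : Sp m K₀, psemi g ρ hg (pr (spMap φ A)) = pr (spMap φ A)) :
    (∃ κ : F, κ ≠ 0 ∧ (g : MM) = κ • (1 : MM)) ∧ ∀ a : K₀, ρ (φ a) = φ a := by
  classical
  obtain ⟨μ, hμ⟩ := mem_GSp.1 hg
  have hone : ∀ v : Fin m ⊕ Fin m → K₀, v ≠ 0 → (∀ i, v i = 0 ∨ v i = 1) → ∃ κ : F, κ ≠ 0 ∧ (g : MM) *ᵥ (fun i => φ (v i)) = κ • (fun i => φ (v i)) := by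
    intro v hv h01
    have hφv : (fun i => φ (v i)) ≠ 0 := by
      intro h0
      apply hv
      funext i
      have := congrFun h0 i
      exact φ.injective (by simpa using this)
    have h1 := hfix (sympTr v 1)
    rw [spMap_sympTr, map_one] at h1
    obtain ⟨κ, hκ0, he, -⟩ := semi_fix_transv hm hg hμ hφv one_ne_zero h1
    have hsm : sm ρ (fun i => φ (v i)) = fun i => φ (v i) := by
      funext i
      show ρ (φ (v i)) = φ (v i)
      rcases h01 i with h | h <;> simp [h]
    rw [hsm] at he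
    refine ⟨κ⁻¹, inv_ne_zero hκ0, ?_⟩
    nth_rewrite 2 [he]
    rw [smul_smul, inv_mul_cancel₀ hκ0, one_smul]
  let i₀ : Fin m ⊕ Fin m := Sum.inl ⟨0, by omega⟩
  let s : Fin m ⊕ Fin m → (Fin m ⊕ Fin m → K₀) := fun j => Pi.single j 1
  have hs01 : ∀ j i, s j i = 0 ∨ s j i = 1 := by
    intro j i
    by_cases h : i = j
    · subst h
      right
      simp [s]
    · left
      simp [s, h]
  have hs0 : ∀ j, s j ≠ 0 := fun j => Pi.single_ne_zero_iff.2 one_ne_zero
  have hφs : ∀ j, (fun i => φ (s j i)) = (Pi.single j 1 : VV) := by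
    intro j
    funext i
    by_cases h : i = j
    · subst h
      simp [s]
    · simp [s, h]
  obtain ⟨κ₀, hκ₀, h₀⟩ := hone (s i₀) (hs0 _) (hs01 _)
  rw [hφs] at h₀
  have hall : ∀ j, (g : MM) *ᵥ (Pi.single j 1 : VV) = κ₀ • (Pi.single j 1 : VV) := by
    intro j
    by_cases hj : j = i₀
    · rw [hj]
      exact h₀
    obtain ⟨κ₁, -, h₁⟩ := hone (s j) (hs0 _) (hs01 _)
    rw [hφs] at h₁
    have hsum : s i₀ + s j ≠ 0 := by
      intro h0
      have := congrFun h0 i₀
      simp [s, Pi.single_apply, Ne.symm hj] at this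
    obtain ⟨κ₂, -, h₂⟩ := hone (s i₀ + s j) hsum (by
      intro i
      by_cases h1 : i = i₀
      · subst h1
        right
        simp [s, Pi.single_apply, Ne.symm hj]
      · by_cases h2 : i = j
        · subst h2
          right
          simp [s, Pi.single_apply, h1]
        · left
          simp [s, Pi.single_apply, h1, h2])
    have h3 : (fun i => φ ((s i₀ + s j) i)) = (Pi.single i₀ 1 : VV) + (Pi.single j 1 : VV) := by
      funext i
      have := congrFun (hφs i₀) i
      have h' := congrFun (hφs j) i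
      simp only [Pi.add_apply, map_add]
      rw [this, h']
    rw [h3, mulVec_add, h₀, h₁] at h₂
    have a1 := congrFun h₂ i₀
    have a2 := congrFun h₂ j
    simp [Pi.single_apply, Ne.symm hj, hj] at a1 a2
    rw [h₁, ← a1] at *
    rw [a2]
  have hscalar : (g : MM) = κ₀ • (1 : MM) := by
    apply Matrix.ext_of_mulVec_single
    intro j
    rw [hall, smul_mulVec, one_mulVec]
  refine ⟨⟨κ₀, hκ₀, hscalar⟩, ?_⟩
  intro a
  by_cases ha : a = 0
  · simp [ha]
  have h1 : psemi (1 : GG) ρ one_mem_GSp = psemi g ρ hg := (psemi_smul_eq ρ one_mem_GSp hg (c := κ₀) (by simpa using hscalar) hκ₀).symm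
  have h2 := hfix (sympTr (s i₀) a)
  rw [← h1, spMap_sympTr, hφs] at h2
  have hone' : ∀ u v : VV, ff (((1 : GG) : MM) *ᵥ u) (((1 : GG) : MM) *ᵥ v) = ((1 : Fˣ) : F) * ff u v := by
    intro u v
    simp
  have hφa : φ a ≠ 0 := by
    simpa using ha
  obtain ⟨κ, hκ, he, hc⟩ := semi_fix_transv hm one_mem_GSp hone' (Pi.single_ne_zero_iff.2 one_ne_zero) hφa h2
  have hsm : sm ρ (Pi.single i₀ 1 : VV) = Pi.single i₀ 1 := by
    funext i
    show ρ ((Pi.single i₀ 1 : VV) i) = _
    by_cases h : i = i₀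
    · subst h
      simp
    · simp [h]
  rw [hsm, Units.val_one, one_mulVec] at he
  have h3 : κ = 1 := by
    have := congrFun he i₀
    simp at this
    exact this.symm
  rw [h3] at hc
  simpa using hc

end base

end Cfsg.Agent.Lib.AutPSp
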