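import Mathlib
import Cfsg.Agent.Lib.AutPSp.BalBasic
import Cfsg.Agent.Lib.Classical.AutSp4
import Cfsg.Agent.Lib.Classical.BalanceAbs
import Cfsg.Agent.Lib.Classical.PSpSimple
import Cfsg.Agent.S0247

/-! Local balance for `PSp`. -/

set_option autoImplicit false
set_option linter.unusedSimpArgs false
set_option linter.unusedVariables false
set_option linter.unusedSectionVars false

namespace Cfsg.Agent.Lib.AutPSp

open Matrix MulAction Cfsg.Agent.Lib.AutPSL Cfsg.Agent.Lib.Classical Cfsg.Agent.Lib.KnownSimple Cfsg.Agent.Lib.FieldAut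
open scoped MatrixGroups LinearAlgebra.Projectivization

variable {m : ℕ} {F : Type*} [Field F]

local notation "ff" => Cfsg.sympForm m F
local notation "VV" => (Fin m ⊕ Fin m → F)
local notation "MM" => Matrix (Fin m ⊕ Fin m) (Fin m ⊕ Fin m) F
local notation "GG" => GL (Fin m ⊕ Fin m) F

section main

variable {K₀ : Type*} [Field K₀] (φ : K₀ →+* F) (σ : F ≃+* F)

/-- The base-changed group in `PSp`. -/
noncomputable def Dp : Subgroup (Cfsg.PSp m F) := ((pr (m := m) (F := F)).comp (spMap φ)).range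

theorem pr_mem_Dp (A : Sp m K₀) : pr (spMap φ A) ∈ Dp (m := m) φ := ⟨A, rfl⟩

theorem std_coe (A : Sp m F) : (spSemi (1 : GG) σ one_mem_GSp A).1 = A.1.map σ := by
  rw [spSemi_coe]
  simp

variable {φ σ}

theorem fix_Dp (hφ' : ∀ b, σ (φ b) = φ b) (A : Sp m K₀) : psemi (1 : GG) σ one_mem_GSp (pr (spMap φ A)) = pr (spMap φ A) := by
  rw [psemi_pr]
  congr 1
  apply Subtype.ext
  rw [std_coe, spMap_coe]
  ext i j
  simp [hφ']

theorem descend (hφ : ∀ a, σ a = a → ∃ b, φ b = a) (B : Sp m F) (hB : B.1.map σ = B.1) : ∃ A : Sp m K₀, spMap φ A = B := by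
  have h1 : ∀ i j, ∃ b, φ b = B.1 i j := by
    intro i j
    apply hφ
    have := congrFun (congrFun hB i) j
    simpa using this
  choose c hc using h1
  have hmap : (Matrix.of c).map φ = B.1 := by
    ext i j
    simp [hc]
  have hmem : (Matrix.of c) ∈ Matrix.symplecticGroup (Fin m) K₀ := by
    rw [SymplecticGroup.mem_iff']
    apply Matrix.map_injective φ.injective
    show ((Matrix.of c)ᵀ * Matrix.J (Fin m) K₀ * Matrix.of c).map φ = (Matrix.J (Fin m) K₀).map φ
    rw [Matrix.map_mul, Matrix.map_mul, J_map_hom, Matrix.transpose_map, hmap]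
    exact (SymplecticGroup.mem_iff' (A := B.1)).1 B.2
  exact ⟨⟨Matrix.of c, hmem⟩, Subtype.ext hmap⟩

theorem fix_le_Dp [Fact (1 ≤ m)] (hφ : ∀ a, σ a = a → ∃ b, φ b = a) {p : ℕ} (hodd : Odd p) (hσ : orderOf σ = p) {k : Cfsg.PSp m F}
    (hk : psemi (1 : GG) σ one_mem_GSp k = k) : k ∈ Dp (m := m) φ := by
  obtain ⟨B, rfl⟩ := pr_surj k
  rw [psemi_pr, pr_eq_iff, std_coe] at hk
  have hfix : B.1.map σ = B.1 := by
    rcases hk with h | h
    · exact h
    have hpow : ∀ n : ℕ, B.1.map (σ ^ n) = (-1 : F) ^ n • B.1 := by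
      intro n
      induction n with
      | zero =>
        ext i j
        simp
      | succ n ih =>
        have h1 : B.1.map (σ ^ (n + 1)) = (B.1.map σ).map (σ ^ n) := by
          ext i j
          simp [pow_succ]
        rw [h1, h]
        have h2 : (-B.1).map (σ ^ n) = -(B.1.map (σ ^ n)) := by
          ext i j
          simp
        rw [h2, ih, pow_succ]
        simp
    have h3 := hpow p
    rw [← hσ, pow_orderOf_eq_one, hσ, hodd.neg_one_pow] at h3
    have h4 : B.1.map (1 : F ≃+* F) = B.1 := by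
      ext i j
      rfl
    rw [h4] at h3
    rw [h]
    nth_rewrite 2 [h3]
    simp
  obtain ⟨A, hA⟩ := descend hφ B hfix
  rw [← hA]
  exact pr_mem_Dp φ A

theorem conj_Dp [Fact (1 ≤ m)] (hφ' : ∀ b, σ (φ b) = φ b) (hφ : ∀ a, σ a = a → ∃ b, φ b = a) {k d : Cfsg.PSp m F} (hk : psemi (1 : GG) σ one_mem_GSp k = k)
    (hd : d ∈ Dp (m := m) φ) : k * d * k⁻¹ ∈ Dp (m := m) φ := by
  obtain ⟨B, rfl⟩ := pr_surj k
  obtain ⟨A, rfl⟩ := hd
  set s := spSemi (1 : GG) σ one_mem_GSp with hs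
  have h1 : pr B = pr (s B) := hk.symm
  have hz : B⁻¹ * s B ∈ Subgroup.center (Sp m F) := QuotientGroup.eq.1 h1
  set z := B⁻¹ * s B with hzd
  have hsB : s B = B * z := by
    rw [hzd]
    group
  have hsA : s (spMap φ A) = spMap φ A := by
    apply Subtype.ext
    rw [hs, std_coe, spMap_coe]
    ext i j
    simp [hφ']
  have hM : s (B * spMap φ A * B⁻¹) = B * spMap φ A * B⁻¹ := by
    rw [map_mul, map_mul, map_inv, hsA, hsB, _root_.mul_inv_rev]
    have h2 : z * spMap φ A = spMap φ A * z := (Subgroup.mem_center_iff.1 hz _).symm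
    calc B * z * spMap φ A * (z⁻¹ * B⁻¹) = B * (z * spMap φ A) * (z⁻¹ * B⁻¹) := by group
      _ = B * spMap φ A * B⁻¹ := by
        rw [h2]
        group
  obtain ⟨A₁, hA₁⟩ := descend hφ (B * spMap φ A * B⁻¹) (by
    have := congrArg Subtype.val hM
    rwa [hs, std_coe] at this)
  refine ⟨A₁, ?_⟩
  show pr (spMap φ A₁) = _
  rw [hA₁, map_mul, map_mul, map_inv]
  rfl

theorem comm_Dp [Fact (1 ≤ m)] (hm : 2 ≤ m) {z : Cfsg.PSp m F} (hz : ∀ d ∈ Dp (m := m) φ, z * d = d * z) : z = 1 := by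
  obtain ⟨g, rfl⟩ := pr_surj z
  have h1 : ∀ A : Sp m K₀, psemi (spG g) (RingEquiv.refl F) (spG_mem g) (pr (spMap φ A)) = pr (spMap φ A) := by
    intro A
    rw [← conj_eq_psemi, MulAut.conj_apply, hz _ (pr_mem_Dp φ A)]
    group
  obtain ⟨⟨κ, hκ, he⟩, -⟩ := semi_scalar_of_base_fix φ hm (spG_mem g) h1
  have h2 : g.1 = κ • (1 : MM) := he
  apply (QuotientGroup.eq_one_iff g).2
  rw [Subgroup.mem_center_iff]
  intro h
  apply Subtype.ext
  show h.1 * g.1 = g.1 * h.1
  rw [h2]
  simp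

/-- An involution. -/
theorem exists_invol_Dp [Fact (1 ≤ m)] (hm : 2 ≤ m) (h2 : (2 : F) ≠ 0) : ∃ d ∈ Dp (m := m) φ, orderOf d = 2 := by
  classical
  let i₀ : Fin m := ⟨0, by omega⟩
  let i₁ : Fin m := ⟨1, by omega⟩
  have hi : i₁ ≠ i₀ := by
    intro h
    have := congrArg Fin.val h
    simp [i₀, i₁] at this
  let b : Fin m → K₀ := fun i => if i = i₀ then -1 else 1
  have hb2 : ∀ i, b i * b i = 1 := by
    intro i
    simp only [b]
    split_ifs <;> simp
  let a : Fin m ⊕ Fin m → K₀ := Sum.elim b b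
  have hmem : Matrix.diagonal a ∈ Matrix.symplecticGroup (Fin m) K₀ := by
    rw [SymplecticGroup.mem_iff', Matrix.diagonal_transpose]
    ext i j
    rw [Matrix.mul_diagonal, Matrix.diagonal_mul]
    rcases i with i | i <;> rcases j with j | j
    · simp [Matrix.J]
    · by_cases h : i = j
      · subst h
        simp only [a, Sum.elim_inl, Sum.elim_inr, Matrix.J, Matrix.fromBlocks_apply₁₂, Matrix.neg_apply, Matrix.one_apply_eq]
        linear_combination -hb2 i
      · simp [Matrix.J, h]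
    · by_cases h : i = j
      · subst h
        simp only [a, Sum.elim_inl, Sum.elim_inr, Matrix.J, Matrix.fromBlocks_apply₂₁, Matrix.one_apply_eq]
        linear_combination hb2 i
      · simp [Matrix.J, h]
    · simp [Matrix.J]
  let A₀ : Sp m K₀ := ⟨Matrix.diagonal a, hmem⟩
  refine ⟨pr (spMap φ A₀), pr_mem_Dp φ A₀, ?_⟩
  apply orderOf_eq_prime
  · have h1 : A₀ * A₀ = 1 := by
      apply Subtype.ext
      show Matrix.diagonal a * Matrix.diagonal a = 1
      rw [Matrix.diagonal_mul_diagonal]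
      ext i j
      by_cases h : i = j
      · subst h
        rw [Matrix.diagonal_apply_eq, Matrix.one_apply_eq]
        rcases i with i | i <;> exact hb2 i
      · rw [Matrix.diagonal_apply_ne _ h, Matrix.one_apply_ne h]
    rw [pow_two, ← map_mul, ← map_mul, h1, map_one, map_one]
  · intro h
    have h1 : pr (spMap φ A₀) = pr 1 := by
      rw [h, map_one]
    rcases pr_eq_iff.1 h1 with h3 | h3
    · have h4 := congrFun (congrFun h3 (Sum.inl i₀)) (Sum.inl i₀)
      simp [spMap_coe, A₀, a, b] at h4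
      apply h2
      have h5 : (1 : F) + 1 = 0 := by
        nth_rewrite 1 [← h4]
        simp
      rw [← h5]
      norm_num
    · have h4 := congrFun (congrFun h3 (Sum.inl i₁)) (Sum.inl i₁)
      simp [spMap_coe, A₀, a, b, hi] at h4
      apply h2
      have h5 : (1 : F) + 1 = 0 := by
        nth_rewrite 1 [h4]
        simp
      rw [← h5]
      norm_num

/-- Automorphisms fixing the base-changed group pointwise. -/
theorem fixer_mem_zpowers [Finite F] [Fact (1 ≤ m)] (hm : 2 ≤ m) (hφ : ∀ a, σ a = a → ∃ b, φ b = a) {y : MulAut (Cfsg.PSp m F)} (hy : y ∈ semiSet m F)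
    (hfix : ∀ A : Sp m K₀, y (pr (spMap φ A)) = pr (spMap φ A)) : y ∈ Subgroup.zpowers (psemi (1 : GG) σ one_mem_GSp) := by
  obtain ⟨g, ρ, hg, rfl⟩ := hy
  obtain ⟨⟨κ, hκ, he⟩, hρ⟩ := semi_scalar_of_base_fix φ hm hg hfix
  have h1 : psemi g ρ hg = psemi (1 : GG) ρ one_mem_GSp := psemi_smul_eq ρ one_mem_GSp hg (c := κ) (by simpa using he) hκ
  have h2 : ρ ∈ Subgroup.zpowers σ := by
    apply mem_zpowers_of_fix
    intro a ha
    obtain ⟨b, rfl⟩ := hφ a (mem_fixedField.1 ha)
    exact hρ b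
  obtain ⟨i, rfl⟩ := Subgroup.mem_zpowers_iff.1 h2
  rw [h1]
  rw [Subgroup.mem_zpowers_iff]
  refine ⟨i, ?_⟩
  show (stdAut (m := m) σ) ^ i = stdAut (σ ^ i)
  rw [map_zpow]

/-- The normal subgroup criterion when the small group is simple. -/
theorem T_trivial_of_simple [Fintype F] [Fact (1 ≤ m)] (hm : 2 ≤ m) (hsimple : IsSimpleGroup (Cfsg.PSp m K₀)) (hφ' : ∀ b, σ (φ b) = φ b) (hφ : ∀ a, σ a = a → ∃ b, φ b = a)
    {p : ℕ} [Fact p.Prime] (hd : ∃ d ∈ Dp (m := m) φ, orderOf d = p) (T : Subgroup (Cfsg.PSp m F)) (hT : T ≤ autFix (psemi (1 : GG) σ one_mem_GSp))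
    (hTd : ∀ d t, psemi (1 : GG) σ one_mem_GSp d = d → t ∈ T → d * t * d⁻¹ ∈ T) (hTc : (Nat.card T).Coprime p) : T = ⊥ := by
  classical
  have hpp : p.Prime := Fact.out
  let π : Sp m K₀ →* Cfsg.PSp m F := (pr (m := m) (F := F)).comp (spMap φ)
  have hπc : Subgroup.center (Sp m K₀) ≤ π.ker := by
    intro A hA
    rw [MonoidHom.mem_ker]
    show pr (spMap φ A) = 1
    rw [← map_one pr]
    rw [pr_eq_iff]
    rcases sp_central_one_or_neg (by omega) A hA with h | h
    · left
      rw [spMap_coe, h]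
      simp
    · right
      rw [spMap_coe, h]
      ext i j
      simp [Matrix.one_apply]
  let π' : Cfsg.PSp m K₀ →* Cfsg.PSp m F := QuotientGroup.lift _ π hπc
  have hπ'mk : ∀ A : Sp m K₀, π' (pr A) = pr (spMap φ A) := fun A => rfl
  let M : Subgroup (Cfsg.PSp m K₀) := T.comap π'
  have hMn : M.Normal := by
    constructor
    intro a ha u
    show π' (u * a * u⁻¹) ∈ T
    rw [map_mul, map_mul, map_inv]
    obtain ⟨A, rfl⟩ := pr_surj u
    rw [hπ'mk]
    exact hTd _ _ (fix_Dp hφ' A) ha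
  rcases hsimple.eq_bot_or_eq_top_of_normal M hMn with hM | hM
  · -- the intersection is trivial
    have hmeet : ∀ t ∈ T, t ∈ Dp (m := m) φ → t = 1 := by
      rintro t ht ⟨A, rfl⟩
      have h1 : pr A ∈ M := ht
      rw [hM, Subgroup.mem_bot] at h1
      have h2 := congrArg π' h1
      rw [hπ'mk, map_one] at h2
      exact h2
    rw [eq_bot_iff]
    intro t ht
    rw [Subgroup.mem_bot]
    have htfix : psemi (1 : GG) σ one_mem_GSp t = t := hT ht
    apply comm_Dp (φ := φ) hm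
    intro d hd
    have hdfix : psemi (1 : GG) σ one_mem_GSp d = d := by
      obtain ⟨A, rfl⟩ := hd
      exact fix_Dp hφ' A
    have h1 : t * d * t⁻¹ * d⁻¹ ∈ T := by
      have h2 : t * d * t⁻¹ * d⁻¹ = t * (d * t⁻¹ * d⁻¹) := by group
      rw [h2]
      exact T.mul_mem ht (hTd d _ hdfix (T.inv_mem ht))
    have h3 : t * d * t⁻¹ * d⁻¹ ∈ Dp (m := m) φ := (Dp φ).mul_mem (conj_Dp hφ' hφ htfix hd) ((Dp φ).inv_mem hd)
    have h4 := hmeet _ h1 h3
    have h5 : t * d * t⁻¹ = d := by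
      have := mul_inv_eq_one.1 h4
      exact this
    exact mul_inv_eq_iff_eq_mul.1 h5
  · -- the whole small group lies in `T`
    exfalso
    obtain ⟨d, ⟨A, rfl⟩, hdo⟩ := hd
    have h1 : pr A ∈ M := by
      rw [hM]
      trivial
    have h2 : π A ∈ T := h1
    have h3 : orderOf (⟨π A, h2⟩ : T) = p := by
      rw [Subgroup.orderOf_mk]
      exact hdo
    have h4 : p ∣ Nat.card T := by
      rw [← h3]
      exact orderOf_dvd_natCard _
    exact hpp.one_lt.ne' (Nat.Coprime.eq_one_of_dvd hTc.symm h4)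

/-- The exceptional case: the small group is `Sp₄(2)`. -/
theorem T_trivial_of_S6 {σ : F ≃+* F} {φ : K₀ →+* F} [Fintype F] [Fintype K₀] (hK₀ : Fintype.card K₀ = 2) (hφ' : ∀ b, σ (φ b) = φ b) (hφ : ∀ a, σ a = a → ∃ b, φ b = a)
    {p : ℕ} [Fact p.Prime] (hodd : Odd p) (hσ : orderOf σ = p) (hdvd : p ∣ Nat.card (autFix (psemi (1 : GL (Fin 2 ⊕ Fin 2) F) σ one_mem_GSp)))
    (T : Subgroup (Cfsg.PSp 2 F)) (hT : T ≤ autFix (psemi (1 : GL (Fin 2 ⊕ Fin 2) F) σ one_mem_GSp))
    (hTd : ∀ d t, psemi (1 : GL (Fin 2 ⊕ Fin 2) F) σ one_mem_GSp d = d → t ∈ T → d * t * d⁻¹ ∈ T) (hTc : (Nat.card T).Coprime p) : T = ⊥ := by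
  classical
  haveI : Fact (1 ≤ 2) := ⟨by norm_num⟩
  have hpp : p.Prime := Fact.out
  have h20 : (2 : K₀) = 0 := by
    have := FiniteField.cast_card_eq_zero K₀
    rwa [hK₀] at this
  have h2F : (2 : F) = 0 := by
    have h := congrArg φ h20
    rwa [map_ofNat, map_zero] at h
  let π : Sp 2 K₀ →* Cfsg.PSp 2 F := (pr (m := 2) (F := F)).comp (spMap φ)
  have hπinj : Function.Injective π := by
    intro A B h
    apply spMap_inj φ
    apply Subtype.ext
    rcases pr_eq_iff.1 h with h1 | h1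
    · exact h1
    · rw [h1]
      ext i j
      simp only [Matrix.neg_apply]
      exact neg_eq_of_add_eq_zero_left (by rw [← two_mul, h2F, zero_mul])
  obtain ⟨e⟩ := Cfsg.Agent.S0247.result hK₀
  -- the order
  have hdvd720 : p ∣ 720 := by
    have h1 : Nat.card (autFix (psemi (1 : GL (Fin 2 ⊕ Fin 2) F) σ one_mem_GSp)) ∣ Nat.card (Sp 2 K₀) := by
      have h2 : autFix (psemi (1 : GL (Fin 2 ⊕ Fin 2) F) σ one_mem_GSp) ≤ π.range := by
        intro k hk
        exact fix_le_Dp hφ hodd hσ hk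
      have h3 : Nat.card (autFix (psemi (1 : GL (Fin 2 ⊕ Fin 2) F) σ one_mem_GSp)) ∣ Nat.card π.range := Subgroup.card_dvd_of_le h2
      have h4 : Nat.card π.range = Nat.card (Sp 2 K₀) := Nat.card_congr (MonoidHom.ofInjective hπinj).toEquiv.symm
      rwa [h4] at h3
    have h5 : Nat.card (Sp 2 K₀) = 720 := by
      rw [Nat.card_congr e.toEquiv]
      simp [Nat.card_eq_fintype_card, Fintype.card_perm]
      decide
    rw [h5] at h1
    exact hdvd.trans h1
  have hp360 : p ∣ 360 := by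
    have h1 : (720 : ℕ) = 2 * 360 := by norm_num
    rw [h1] at hdvd720
    rcases (Nat.Prime.dvd_mul hpp).1 hdvd720 with h | h
    · have := (Nat.prime_dvd_prime_iff_eq hpp Nat.prime_two).1 h
      rw [this] at hodd
      exact absurd hodd (by decide)
    · exact h
  by_contra hne
  obtain ⟨t, ht1⟩ := (Subgroup.ne_bot_iff_exists_ne_one.1 hne)
  -- the preimage
  let M : Subgroup (Sp 2 K₀) := T.comap π
  have hMn : M.Normal := by
    constructor
    intro a ha u
    show π (u * a * u⁻¹) ∈ T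
    rw [map_mul, map_mul, map_inv]
    exact hTd _ _ (fix_Dp hφ' u) ha
  have htr : t.1 ∈ π.range := fix_le_Dp hφ hodd hσ (hT t.2)
  obtain ⟨a, ha⟩ := htr
  have haM : a ∈ M := by
    show π a ∈ T
    rw [ha]
    exact t.2
  have ha1 : a ≠ 1 := by
    rintro rfl
    apply ht1
    apply Subtype.ext
    rw [← ha, map_one]
    rfl
  -- in the symmetric group
  let M' : Subgroup (Equiv.Perm (Fin 6)) := M.map e.toMonoidHom
  have hM'n : M'.Normal := Subgroup.Normal.map hMn e.toMonoidHom e.surjective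
  have hM'nt : Nontrivial M' := by
    refine ⟨⟨⟨e a, ⟨a, haM, rfl⟩⟩, 1, ?_⟩⟩
    intro h
    have h1 : e a = 1 := congrArg Subtype.val h
    apply ha1
    apply e.injective
    rw [h1, map_one]
  haveI := hM'n
  have hA6 : alternatingGroup (Fin 6) ≤ M' := Equiv.Perm.alternatingGroup_le_of_normal (by simp) hM'nt
  have h360 : (360 : ℕ) ∣ Nat.card M' := by
    have h1 := Subgroup.card_dvd_of_le hA6
    have h2 : Nat.card (alternatingGroup (Fin 6)) = 360 := by
      rw [Nat.card_eq_fintype_card, card_alternatingGroup, Fintype.card_fin]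
      norm_num [Nat.factorial]
    rwa [h2] at h1
  have hcardM' : Nat.card M' = Nat.card M := Nat.card_congr (Subgroup.equivMapOfInjective M e.toMonoidHom e.injective).symm.toEquiv
  have hcardT : Nat.card M ∣ Nat.card T := by
    let f : M →* T := (π.comp M.subtype).codRestrict T (fun x => x.2)
    apply Subgroup.card_dvd_of_injective f
    intro x y h
    apply Subtype.ext
    apply hπinj
    exact congrArg Subtype.val h
  have h4 : p ∣ Nat.card T := by
    rw [hcardM'] at h360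
    exact hp360.trans (h360.trans hcardT)
  exact hpp.one_lt.ne' (Nat.Coprime.eq_one_of_dvd hTc.symm h4)

end main

section exc

variable [Fintype F] (h2 : (2 : F) = 0) (h3 : 3 ≤ Fintype.card F)

/-- The graph automorphism does not agree with a semilinear automorphism on a transvection. -/
theorem tau_pr_ne_semi {g : GL (Fin 2 ⊕ Fin 2) F} {σ : F ≃+* F} {hg : g ∈ Cfsg.GSp 2 F} :
    tauE h2 h3 (pr (sympTr (e_a (F := F)) 1)) ≠ psemi g σ hg (pr (sympTr (e_a (F := F)) 1)) := by
  intro h1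
  set t := sympTr (e_a (F := F)) 1 with ht
  rw [tauE_pr, psemi_pr] at h1
  have h4 := pr_inj_two h2 h1
  have h5 : psiM t.1 = (g : Matrix (Fin 2 ⊕ Fin 2) (Fin 2 ⊕ Fin 2) F) * t.1 * ((g⁻¹ : GL _ F) : Matrix (Fin 2 ⊕ Fin 2) (Fin 2 ⊕ Fin 2) F) := by
    have := congrArg Subtype.val h4
    rw [psiHom_coe, spSemi_coe, ht, tv_map] at this
    exact this
  obtain ⟨y₀, hy₀⟩ : ∃ y₀ : (Fin 2 ⊕ Fin 2 → F), y₀ = (g : Matrix (Fin 2 ⊕ Fin 2) (Fin 2 ⊕ Fin 2) F) *ᵥ e_a := ⟨_, rfl⟩
  have key : ∀ z : (Fin 2 ⊕ Fin 2 → F), ∃ c : F, psiM t.1 *ᵥ z = z + c • y₀ := by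
    intro z
    refine ⟨1 * Cfsg.sympForm 2 F (((g⁻¹ : GL _ F) : Matrix (Fin 2 ⊕ Fin 2) (Fin 2 ⊕ Fin 2) F) *ᵥ z) e_a, ?_⟩
    rw [h5, ← Matrix.mulVec_mulVec, ← Matrix.mulVec_mulVec, ht, sympTr_coe, sympT_mulVec, Matrix.mulVec_add, Matrix.mulVec_smul,
      Matrix.mulVec_mulVec, ← Units.val_mul, mul_inv_cancel, hy₀]
    simp
  obtain ⟨c₁, hc₁⟩ := key (Pi.single ic 1)
  obtain ⟨c₂, hc₂⟩ := key (Pi.single ie 1)
  have col : ∀ (X : Matrix (Fin 2 ⊕ Fin 2) (Fin 2 ⊕ Fin 2) F) (i j : Fin 2 ⊕ Fin 2), (X *ᵥ Pi.single j 1) i = X i j := by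
    intro X i j
    rw [Matrix.mulVec_single_one]
    rfl
  have a1 := congrFun hc₁ ia
  have a2 := congrFun hc₁ ib
  have a3 := congrFun hc₂ ia
  rw [col, ht, psi_tv_a_c] at a1
  rw [col, ht, psi_tv_b_c] at a2
  rw [col, ht, psi_tv_a_e] at a3
  simp [Pi.single_apply] at a1 a2 a3
  have hc₁0 : c₁ ≠ 0 := by
    rintro rfl
    simp at a2
  have hy : y₀ ia = 0 := by
    rcases a1 with a1 | a1
    · exact absurd a1 hc₁0
    · exact a1
  rw [hy] at a3
  simp at a3

end exc

/-- Fixers of the base-changed group are semilinear. -/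
theorem fixer_semi [Fintype F] {K₀ : Type*} [Field K₀] (φ : K₀ →+* F) {r : ℕ} [Fact r.Prime] [CharP F r] (hm : 2 ≤ m) (hs : m = 2 → 3 ≤ Fintype.card F)
    {y : MulAut (Cfsg.PSp m F)} (hfix : ∀ A : Sp m K₀, y (pr (spMap φ A)) = pr (spMap φ A)) : y ∈ semiSet m F := by
  by_cases hexc : m = 2 ∧ r = 2
  · obtain ⟨rfl, rfl⟩ := hexc
    have h2 : (2 : F) = 0 := by
      have := CharP.cast_eq_zero F 2
      exact_mod_cast this
    have h3 := hs rfl
    rcases exc_all h2 h3 (p := 2) y with h | h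
    · exact h
    · exfalso
      obtain ⟨g, ρ, hg, e⟩ := h
      have h1 := hfix (sympTr (e_a (F := K₀)) 1)
      have h4 : spMap φ (sympTr (e_a (F := K₀)) 1) = sympTr (e_a (F := F)) 1 := by
        rw [spMap_sympTr, map_one]
        congr 1
        funext i
        by_cases h : i = ia
        · subst h
          simp
        · simp [h]
      rw [h4] at h1
      have h5 := DFunLike.congr_fun e (pr (sympTr (e_a (F := F)) 1))
      rw [MulAut.mul_apply, h1] at h5
      exact tau_pr_ne_semi h2 h3 h5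
  · obtain ⟨g, ρ, hg, e⟩ := aut_semilinear (p := r) hm (fun h h' => hexc ⟨h, h'⟩) y
    exact ⟨g, ρ, hg, e⟩

/-- An element of prime order different from the characteristic is semilinear. -/
theorem prime_order_semi [Fintype F] {r : ℕ} [Fact r.Prime] [CharP F r] (hm : 2 ≤ m) (hs : m = 2 → 3 ≤ Fintype.card F)
    {p : ℕ} [Fact p.Prime] (hpr : p ≠ r) (x : MulAut (Cfsg.PSp m F)) (hord : orderOf x = p) : x ∈ semiSet m F := by
  have hpp : p.Prime := Fact.out
  by_cases hexc : m = 2 ∧ r = 2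
  · obtain ⟨rfl, rfl⟩ := hexc
    have h2 : (2 : F) = 0 := by
      have := CharP.cast_eq_zero F 2
      exact_mod_cast this
    have h3 := hs rfl
    have hodd : Odd p := hpp.odd_of_ne_two hpr
    have hxx : x * x ∈ semiSet 2 F := by
      rcases exc_all h2 h3 (p := 2) x with h | h
      · exact semiSet_mul h h
      · rcases exc_all h2 h3 (p := 2) (x * x) with h' | h'
        · exact h'
        · have h4 : x ∈ semiSet 2 F := by
            have h5 := semiSet_mul (semiSet_inv h) h'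
            have h6 : (tauE h2 h3 * x)⁻¹ * (tauE h2 h3 * (x * x)) = x := by group
            rwa [h6] at h5
          exact semiSet_mul h4 h4
    have hpow : ∀ n : ℕ, (x * x) ^ (n + 1) ∈ semiSet 2 F := by
      intro n
      induction n with
      | zero => simpa using hxx
      | succ n ih =>
        rw [pow_succ]
        exact semiSet_mul ih hxx
    obtain ⟨k, hk⟩ := hodd
    have h7 : (x * x) ^ (k + 1) = x := by
      rw [← pow_two, ← pow_mul]
      have h8 : 2 * (k + 1) = p + 1 := by omega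
      rw [h8, pow_succ, ← hord, pow_orderOf_eq_one, one_mul]
    have h9 := hpow k
    rwa [h7] at h9
  · obtain ⟨g, ρ, hg, e⟩ := aut_semilinear (p := r) hm (fun h h' => hexc ⟨h, h'⟩) x
    exact ⟨g, ρ, hg, e⟩

/-- The local balance criterion for `PSp`. -/
theorem psp_balance [Fintype F] {r : ℕ} [Fact r.Prime] [CharP F r] (hm : 2 ≤ m) (hs : m = 2 → 3 ≤ Fintype.card F)
    (hK : IsSimpleGroup (Cfsg.PSp m F)) (A : Subgroup (MulAut (Cfsg.PSp m F))) (hinn : ∀ k : Cfsg.PSp m F, MulAut.conj k ∈ A) {p : ℕ} [Fact p.Prime]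
    (hpr : p ≠ r) (x : MulAut (Cfsg.PSp m F)) (hxA : x ∈ A) (hord : orderOf x = p) (hnot : ¬ Cfsg.IsInnerDiagonalAutPSp x) :
    Cfsg.pPrimeCore p ↥(A ⊓ Subgroup.centralizer {x}) ≠ ⊥ ↔ (Cfsg.IsFieldAutClassPSp x ∧ Nat.Coprime p (Nat.card ↥(MonoidHom.eqLocus x.toMonoidHom (MonoidHom.id (Cfsg.PSp m F))))) := by
  classical
  haveI : Fact (1 ≤ m) := ⟨by omega⟩
  have hpp : p.Prime := Fact.out
  obtain ⟨g, σ, hg, hxe⟩ := prime_order_semi hm hs hpr x hord
  have hσ1 : σ ≠ RingEquiv.refl F := by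
    rintro rfl
    apply hnot
    rw [hxe]
    exact ⟨g, hg, psemi_induced g _ hg⟩
  have hxp : x ^ p = 1 := by
    rw [← hord]
    exact pow_orderOf_eq_one x
  have hσp : σ ^ p = 1 := by
    rw [hxe, psemi_pow] at hxp
    exact (psemi_eq_one hxp).1
  have hσo : orderOf σ = p := orderOf_eq_prime hσp hσ1
  obtain ⟨h, hh, he⟩ := core_field hg σ hpp.pos hσo (by rw [← hxe]; exact hxp)
  rw [← hxe] at he
  set x₀ := psemi (1 : GL (Fin m ⊕ Fin m) F) σ one_mem_GSp with hx₀
  set δ := psemi h (RingEquiv.refl F) hh with hδ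
  have hclass : Cfsg.IsFieldAutClassPSp x := by
    refine ⟨δ⁻¹, σ, hσ1, ?_⟩
    have h1 : δ⁻¹ * x * δ⁻¹⁻¹ = x₀ := by
      rw [he]
      group
    rw [h1]
    intro s s' hss
    show pr (spSemi (1 : GL (Fin m ⊕ Fin m) F) σ one_mem_GSp s) = pr s'
    congr 1
    apply Subtype.ext
    rw [std_coe, hss]
  -- the fixed field
  haveI : Finite (fixedField σ) := inferInstance
  letI : Fintype (fixedField σ) := Fintype.ofFinite _
  let φ : fixedField σ →+* F := (fixedField σ).subtype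
  have hφ' : ∀ b, σ (φ b) = φ b := fun b => mem_fixedField.1 b.2
  have hφ : ∀ a, σ a = a → ∃ b, φ b = a := fun a ha => ⟨⟨a, mem_fixedField.2 ha⟩, rfl⟩
  haveI := hK.toNontrivial
  have hcen : ∀ k : Cfsg.PSp m F, (∀ a, k * a = a * k) → k = 1 := fun k hk => comm_Dp (φ := φ) hm (fun d _ => hk d)
  have main := balance_abstract_conj hcen A hinn x x₀ δ he hxA hord ?_ ?_ ?_
  · constructor
    · exact fun h1 => ⟨hclass, main.1 h1⟩
    · exact fun h1 => main.2 h1.2
  · -- non-trivial fixed points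
    by_contra hcon
    push Not at hcon
    obtain ⟨z, hz⟩ := exists_ne (1 : Cfsg.PSp m F)
    apply hz
    apply comm_Dp (φ := φ) hm
    rintro d ⟨A₀, rfl⟩
    have h1 := hcon _ (fix_Dp hφ' A₀)
    show z * pr (spMap φ A₀) = pr (spMap φ A₀) * z
    rw [h1]
    group
  · intro y hy
    exact fixer_mem_zpowers hm hφ (fixer_semi φ hm hs (fun A₀ => hy _ (fix_Dp hφ' A₀))) (fun A₀ => hy _ (fix_Dp hφ' A₀))
  · intro hdvd T hT hTd hTc
    have hcard2 : 2 ≤ Fintype.card (fixedField σ) := Fintype.one_lt_card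
    by_cases hexc : m = 2 ∧ Fintype.card (fixedField σ) = 2
    · obtain ⟨rfl, hc⟩ := hexc
      have h20 : (2 : F) = 0 := by
        have h3 := FiniteField.cast_card_eq_zero (fixedField σ)
        rw [hc] at h3
        have h4 := congrArg φ h3
        rwa [map_natCast, map_zero] at h4
      have hr2 : r = 2 := by
        have h3 : ((2 : ℕ) : F) = 0 := by exact_mod_cast h20
        have h4 := (CharP.cast_eq_zero_iff F r 2).1 h3
        exact (Nat.prime_dvd_prime_iff_eq Fact.out Nat.prime_two).1 h4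
      have hodd : Odd p := hpp.odd_of_ne_two (by rw [hr2] at hpr; exact hpr)
      exact T_trivial_of_S6 hc hφ' hφ hodd hσo hdvd T hT hTd hTc
    · have hsimple : IsSimpleGroup (Cfsg.PSp m (fixedField σ)) := psp_simple hm (by
        intro hm2
        have : Fintype.card (fixedField σ) ≠ 2 := fun h => hexc ⟨hm2, h⟩
        omega)
      have hd : ∃ d ∈ Dp (m := m) φ, orderOf d = p := by
        rcases hpp.eq_two_or_odd' with h2 | hodd
        · subst h2
          have h20 : (2 : F) ≠ 0 := by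
            intro h0
            have h3 : ((2 : ℕ) : F) = 0 := by exact_mod_cast h0
            have h4 := (CharP.cast_eq_zero_iff F r 2).1 h3
            exact hpr ((Nat.prime_dvd_prime_iff_eq Fact.out Nat.prime_two).1 h4).symm
          exact exists_invol_Dp hm h20
        · obtain ⟨k, hk⟩ := exists_prime_orderOf_dvd_card' p hdvd
          refine ⟨k.1, fix_le_Dp hφ hodd hσo k.2, ?_⟩
          rw [Subgroup.orderOf_coe]
          exact hk
      exact T_trivial_of_simple hm hsimple hφ' hφ hd T hT hTd hTc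

end Cfsg.Agent.Lib.AutPSp
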